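import Cfsg.Agent.H217.Odm.Min
import Cfsg.Agent.H217.Odm.Real

/-!
# The subgroups of `McL` of odd index and order divisible by `25` (TEAM ODDM, S4785, helper217)
-/

set_option autoImplicit false
set_option linter.unusedSectionVars false
open Cfsg

namespace Cfsg.Agent.H217.Odm.McLAbs

open Subgroup Cfsg.Agent.H453.OddM Cfsg.Agent.OrdDiv Cfsg.Agent.H257.El Cfsg.Agent.H217.Odm.Min

universe u

/-- the local data inherited by subgroups -/
structure Fct (G : Type*) [Group G] : Prop where
  two5 : ∀ t : G, orderOf t = 2 → ¬ 25 ∣ Nat.card (centralizer ({t} : Set G))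
  three5 : ∀ t : G, orderOf t = 3 → ¬ 25 ∣ Nat.card (centralizer ({t} : Set G))
  five3 : ∀ x : G, orderOf x = 5 → ¬ 9 ∣ Nat.card (centralizer ({x} : Set G))
  five7 : ∀ x : G, orderOf x = 5 → ¬ 7 ∣ Nat.card (centralizer ({x} : Set G))
  seven : ∀ x : G, orderOf x = 7 → Nat.card (centralizer ({x} : Set G)) ∣ 14
  four : ∀ p : ℕ, p = 5 ∨ p = 7 ∨ p = 11 → ∀ x : G, orderOf x = p → ¬ 4 ∣ Nat.card (centralizer ({x} : Set G))
  norm : ∀ x : G, orderOf x = 7 → Nat.card (normalizer ((zpowers x : Subgroup G) : Set G)) ∣ 42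
  ext : ∀ x : G, orderOf x = 7 → Nat.card (normalizer ((zpowers x : Subgroup G) : Set G)) = 42 →
    Nat.card (centralizer ({x} : Set G)) = 14

theorem Fct.sub {T : Type*} [Group T] [Finite T] (h : Fct T)
    (hn : ∀ x : T, orderOf x = 7 → Nat.card (normalizer ((zpowers x : Subgroup T) : Set T)) = 42)
    (hc : ∀ x : T, orderOf x = 7 → Nat.card (centralizer ({x} : Set T)) = 14) (R : Subgroup T) : Fct R := by
  have ho : ∀ (x : R) {k : ℕ}, orderOf x = k → orderOf (x : T) = k := fun x k hx => by rw [Subgroup.orderOf_coe, hx]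
  refine ⟨fun t ht hd => h.two5 t (ho t ht) (hd.trans (card_cent_sub R t)),
    fun t ht hd => h.three5 t (ho t ht) (hd.trans (card_cent_sub R t)),
    fun t ht hd => h.five3 t (ho t ht) (hd.trans (card_cent_sub R t)),
    fun t ht hd => h.five7 t (ho t ht) (hd.trans (card_cent_sub R t)),
    fun t ht => (card_cent_sub R t).trans (h.seven t (ho t ht)),
    fun p hp t ht hd => h.four p hp t (ho t ht) (hd.trans (card_cent_sub R t)),
    fun t ht => (card_norm_dvd t).trans (h.norm t (ho t ht)), fun x hx h42 => ?_⟩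
  -- the normalizer of `⟨x⟩` in `T` lies in `R`
  have h1 : (normalizer ((zpowers x : Subgroup R) : Set R)).map R.subtype ≤
      normalizer ((zpowers (x : T) : Subgroup T) : Set T) := by
    rintro _ ⟨y, hy, rfl⟩
    have h2 := mem_normalizer_iff.1 hy
    change (y : T) ∈ normalizer ((zpowers (x : T) : Subgroup T) : Set T)
    have h3 : y * x * y⁻¹ ∈ zpowers x := (h2 x).1 (mem_zpowers x)
    have h4 : (y : T) * x * (y : T)⁻¹ ∈ zpowers (x : T) := by
      obtain ⟨k, hk⟩ := mem_zpowers_iff.1 h3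
      exact mem_zpowers_iff.2 ⟨k, by
        have h5 := congrArg (Subtype.val) hk
        rwa [Subgroup.coe_zpow, Subgroup.coe_mul, Subgroup.coe_mul, Subgroup.coe_inv] at h5⟩
    refine mem_normalizer_iff_map_conj_eq.2 ?_
    rw [MonoidHom.map_zpowers]
    apply Subgroup.eq_of_le_of_card_ge
    · rw [zpowers_le]
      exact h4
    · rw [Nat.card_zpowers, Nat.card_zpowers]
      exact (MulAut.conj (y : T)).orderOf_eq (x : T) |>.ge
  have h2 : (normalizer ((zpowers x : Subgroup R) : Set R)).map R.subtype =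
      normalizer ((zpowers (x : T) : Subgroup T) : Set T) := by
    apply Subgroup.eq_of_le_of_card_ge h1
    rw [hn _ (ho x hx), Subgroup.card_map_of_injective R.subtype_injective, h42]
  have h3 : centralizer ({(x : T)} : Set T) ≤ (centralizer ({x} : Set R)).map R.subtype := by
    intro z hz
    have h4 : z ∈ normalizer ((zpowers (x : T) : Subgroup T) : Set T) := by
      refine centralizer_le_normalizer _ ?_
      rw [mem_centralizer_iff]
      intro y hy
      obtain ⟨k, rfl⟩ := mem_zpowers_iff.1 hy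
      exact ((show Commute z (x : T) from mem_centralizer_singleton_iff.1 hz).zpow_right k).eq.symm
    rw [← h2] at h4
    obtain ⟨w, -, rfl⟩ := h4
    refine ⟨w, ?_, rfl⟩
    have h5 : (w : T) * (x : T) = (x : T) * w := mem_centralizer_singleton_iff.1 hz
    exact mem_centralizer_singleton_iff.2 (Subtype.ext h5)
  have h4 := Subgroup.card_dvd_of_le h3
  rw [hc _ (ho x hx), Subgroup.card_map_of_injective R.subtype_injective] at h4
  exact Nat.dvd_antisymm ((card_cent_sub R x).trans (h.seven _ (ho x hx))) h4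

theorem prime_cases {p : ℕ} (hp : p.Prime) (hd : p ∣ 898128000) : p = 2 ∨ p = 3 ∨ p = 5 ∨ p = 7 ∨ p = 11 := by
  have h1 : p ∣ 2 ^ 7 * (3 ^ 6 * (5 ^ 3 * (7 * 11))) := by norm_num; exact hd
  rcases (hp.dvd_mul).1 h1 with h | h
  · exact Or.inl ((Nat.prime_dvd_prime_iff_eq hp Nat.prime_two).1 (hp.dvd_of_dvd_pow h))
  rcases (hp.dvd_mul).1 h with h | h
  · exact Or.inr (Or.inl ((Nat.prime_dvd_prime_iff_eq hp Nat.prime_three).1 (hp.dvd_of_dvd_pow h)))
  rcases (hp.dvd_mul).1 h with h | h
  · exact Or.inr (Or.inr (Or.inl ((Nat.prime_dvd_prime_iff_eq hp Nat.prime_five).1 (hp.dvd_of_dvd_pow h))))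
  rcases (hp.dvd_mul).1 h with h | h
  · exact Or.inr (Or.inr (Or.inr (Or.inl ((Nat.prime_dvd_prime_iff_eq hp (by norm_num)).1 h))))
  · exact Or.inr (Or.inr (Or.inr (Or.inr ((Nat.prime_dvd_prime_iff_eq hp (by norm_num)).1 h))))

/-- no elementary abelian normal subgroups -/
theorem no_elab {G : Type*} [Group G] [Finite G] (F : Fct G) (hd : Nat.card G ∣ 898128000) (h2 : 2 ^ 7 ∣ Nat.card G)
    (h25 : 25 ∣ Nat.card G) (M : Subgroup G) (hM : M.Normal) (hne : M ≠ ⊥) {p : ℕ} (hp : p.Prime)
    (hexp : ∀ f ∈ M, f ≠ 1 → orderOf f = p) : False := by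
  have hfp : Fact p.Prime := ⟨hp⟩
  have hf2 : Fact (Nat.Prime 2) := ⟨Nat.prime_two⟩
  have hf5 : Fact (Nat.Prime 5) := ⟨Nat.prime_five⟩
  have hIs : IsPGroup p M := by
    rw [IsPGroup.iff_orderOf]
    rintro ⟨d, hd⟩
    rw [Subgroup.orderOf_mk]
    by_cases hd1 : d = 1
    · exact ⟨0, by rw [hd1, orderOf_one, pow_zero]⟩
    · exact ⟨1, by rw [hexp d hd hd1, pow_one]⟩
  obtain ⟨k, hk⟩ := IsPGroup.iff_card.1 hIs
  have hk0 : k ≠ 0 := by
    rintro rfl
    rw [pow_zero, Subgroup.card_eq_one] at hk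
    exact hne hk
  have hpk : p ^ k ∣ 898128000 := by
    rw [← hk]; exact (Subgroup.card_subgroup_dvd_card M).trans hd
  have hbd : ∀ j : ℕ, ¬ p ^ (j + 1) ∣ 898128000 → k ≤ j := by
    intro j hj
    by_contra hlt
    push Not at hlt
    exact hj ((pow_dvd_pow p hlt).trans hpk)
  obtain ⟨S, hS⟩ := Sylow.exists_subgroup_card_pow_prime 2 h2
  obtain ⟨A, hA⟩ := Sylow.exists_subgroup_card_pow_prime 5 (n := 2) (by norm_num; exact h25 : 5 ^ 2 ∣ Nat.card G)
  have hA' : Nat.card A = 25 := by rw [hA]; norm_num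
  have hbig : (∀ f ∈ M, f ≠ 1 → ¬ 4 ∣ Nat.card (centralizer ({f} : Set G))) → ∃ j, p ^ k = 64 * j + 1 := by
    intro h
    obtain ⟨j, hj⟩ := two_orbits (a := 6) M S hM hS h
    exact ⟨j, by rw [← hk, hj]; norm_num⟩
  rcases prime_cases hp ((dvd_pow_self p hk0).trans hpk) with rfl | rfl | rfl | rfl | rfl
  · obtain ⟨j, hj⟩ := free25 hp (by norm_num) (by norm_num) M hM hexp
      (fun g hg => by
        have h := F.four 5 (Or.inl rfl) g hg
        norm_num; exact h) F.two5 A hA'
    rw [hk] at hj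
    have h7 := hbd 7 (by norm_num)
    interval_cases k <;> omega
  · obtain ⟨j, hj⟩ := free25 hp (by norm_num) (by norm_num) M hM hexp
      (fun g hg => by
        have h := F.five3 g hg
        norm_num; exact h) F.three5 A hA'
    rw [hk] at hj
    have h7 := hbd 6 (by norm_num)
    interval_cases k <;> omega
  · obtain ⟨j, hj⟩ := hbig fun f hf hf1 => F.four 5 (by norm_num) f (hexp f hf hf1)
    have h7 := hbd 3 (by norm_num)
    interval_cases k <;> omega
  · obtain ⟨j, hj⟩ := hbig fun f hf hf1 => F.four 7 (by norm_num) f (hexp f hf hf1)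
    have h7 := hbd 1 (by norm_num)
    interval_cases k <;> omega
  · obtain ⟨j, hj⟩ := hbig fun f hf hf1 => F.four 11 (by norm_num) f (hexp f hf hf1)
    have h7 := hbd 1 (by norm_num)
    interval_cases k <;> omega

/-! ### simple normal subgroups -/

def nn : ℕ := 898128000
def ll : List (ℕ × ℕ) := [(2, 7), (3, 6), (5, 3), (7, 1), (11, 1)]

theorem valid_ll : valid ll nn = true := by decide +kernel

/-- nonabelian simple groups of order dividing `|McL|` -/
theorem all_four : ((cands ll nn).all fun g => (ordN g % 4 == 0) &&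
    ((ordN g % 5 == 0) || (ordN g % 7 == 0) || (ordN g % 11 == 0))) = true := by decide +kernel

/-- the check for the groups of order prime to `25` -/
def chk5 (c : ℕ) : Bool :=
  (c % 25 == 0) || (c % 7 == 0) || !((2 ^ (vt 2 c) % 5 == 1) || (2 ^ (vt 2 c) % 5 == 2)) ||
    !((3 ^ (vt 3 c) % 5 == 1) || (3 ^ (vt 3 c) % 5 == 3))

theorem all_chk5 : ((cands ll nn).all fun g => chk5 (ordN g)) = true := by decide +kernel

theorem list25 : ((cands ll nn).filter fun g => ordN g % 25 == 0) = [.alt 10, .alt 11, .psu 3 5, .j2, .mcl] := by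
  decide +kernel

theorem exists_name (tab : OrderTable.{u}) (known : Known.{u}) {S : Type u} [Group S] [Finite S] [IsSimpleGroup S]
    (hna : ¬ ∀ a b : S, a * b = b * a) (hd : Nat.card S ∣ 898128000) :
    ∃ g ∈ cands ll nn, Real g S ∧ Nat.card S = ordN g :=
  exists_good tab (known S) hna valid_ll hd

theorem sylow_check {G : Type*} [Group G] [Finite G] (F : Fct G) (M : Subgroup G) [hM : M.Normal]
    (hi : 5 ∣ M.index) {s : ℕ} (hs : s.Prime) :
    ∃ c : ℕ, (∃ y : G, orderOf y = 5 ∧ s ^ c ∣ Nat.card (centralizer ({y} : Set G))) ∧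
      s ^ (Nat.card M).factorization s ≡ s ^ c [MOD 5] := by
  have hf5 : Fact (Nat.Prime 5) := ⟨Nat.prime_five⟩
  have hfs : Fact s.Prime := ⟨hs⟩
  obtain ⟨P⟩ : Nonempty (Sylow s M) := inferInstance
  obtain ⟨y, hy, hyN⟩ := exists_normalizer' (r := 5) M hi P
  have hc : Nat.card ((P : Subgroup M).map M.subtype) = s ^ (Nat.card M).factorization s := by
    rw [Subgroup.card_map_of_injective M.subtype_injective]
    exact P.card_eq_multiplicity
  obtain ⟨c, h1, h2⟩ := modEq_cent Nat.prime_five hs hy hc hyN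
  exact ⟨c, ⟨y, hy, h1⟩, h2⟩

theorem not25 {G : Type*} [Group G] [Finite G] (F : Fct G) (M : Subgroup G) [hM : M.Normal]
    (h25 : 25 ∣ Nat.card G) (hd : Nat.card G ∣ 898128000) (hc : chk5 (Nat.card M) = true) :
    25 ∣ Nat.card M := by
  by_contra hn
  have h0 : Nat.card M ≠ 0 := Nat.card_pos.ne'
  have hle : Nat.card M < 2 ^ 300 := by
    have h1 : Nat.card M ≤ 898128000 := Nat.le_of_dvd (by norm_num) ((Subgroup.card_subgroup_dvd_card M).trans hd)
    calc Nat.card M ≤ 898128000 := h1
      _ < 2 ^ 30 := by norm_num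
      _ ≤ 2 ^ 300 := Nat.pow_le_pow_right (by norm_num) (by norm_num)
  have hi : 5 ∣ M.index := by
    by_contra hi
    rw [← Subgroup.card_mul_index M] at h25
    exact hn ((Nat.Coprime.dvd_of_dvd_mul_right (by
      have : Nat.Coprime 5 M.index := (Nat.Prime.coprime_iff_not_dvd Nat.prime_five).2 hi
      exact Nat.Coprime.pow_left 2 this) h25))
  unfold chk5 at hc
  rw [Bool.or_eq_true, Bool.or_eq_true, Bool.or_eq_true] at hc
  rcases hc with ((hc | hc) | hc) | hc
  · rw [beq_iff_eq] at hc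
    exact hn (Nat.dvd_of_mod_eq_zero hc)
  · rw [beq_iff_eq] at hc
    obtain ⟨c, ⟨y, hy, h1⟩, h2⟩ := sylow_check F M hi (s := 7) (by norm_num)
    have hc0 : c = 0 := by
      by_contra hc0
      exact F.five7 y hy ((dvd_pow_self 7 hc0).trans h1)
    have h3 : (Nat.card M).factorization 7 = 1 := by
      have h4 : 1 ≤ (Nat.card M).factorization 7 := by
        rw [← Nat.Prime.pow_dvd_iff_le_factorization (by norm_num) h0, pow_one]
        exact Nat.dvd_of_mod_eq_zero hc
      have h5 : ¬ 2 ≤ (Nat.card M).factorization 7 := by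
        rw [← Nat.Prime.pow_dvd_iff_le_factorization (by norm_num) h0]
        intro h6
        have h7 := (h6.trans (Subgroup.card_subgroup_dvd_card M)).trans hd
        norm_num at h7
      omega
    rw [h3, hc0] at h2
    exact absurd h2 (by decide)
  · rw [Bool.not_eq_true', Bool.or_eq_false_iff, beq_eq_false_iff_ne, beq_eq_false_iff_ne,
      vt_eq Nat.prime_two h0 hle] at hc
    obtain ⟨c, ⟨y, hy, h1⟩, h2⟩ := sylow_check F M hi Nat.prime_two
    have hc2 : c < 2 := by
      by_contra hc0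
      push Not at hc0
      exact F.four 5 (Or.inl rfl) y hy ((pow_dvd_pow 2 hc0).trans h1)
    have h3 : c = 0 ∨ c = 1 := by omega
    rcases h3 with rfl | rfl
    · exact hc.1 h2
    · exact hc.2 h2
  · rw [Bool.not_eq_true', Bool.or_eq_false_iff, beq_eq_false_iff_ne, beq_eq_false_iff_ne,
      vt_eq Nat.prime_three h0 hle] at hc
    obtain ⟨c, ⟨y, hy, h1⟩, h2⟩ := sylow_check F M hi Nat.prime_three
    have hc2 : c < 2 := by
      by_contra hc0
      push Not at hc0
      exact F.five3 y hy ((pow_dvd_pow 3 hc0).trans h1)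
    have h3 : c = 0 ∨ c = 1 := by omega
    rcases h3 with rfl | rfl
    · exact hc.1 h2
    · exact hc.2 h2

/-- `A₁₀` has an element of order `7` commuting with an element of order `3` -/
theorem alt_ten : ∃ x y : alternatingGroup (Fin 10), orderOf x = 7 ∧ orderOf y = 3 ∧ y * x = x * y := by
  refine ⟨⟨c[0, 1, 2, 3, 4, 5, 6], Equiv.Perm.mem_alternatingGroup.2 (by decide +kernel)⟩,
    ⟨c[7, 8, 9], Equiv.Perm.mem_alternatingGroup.2 (by decide +kernel)⟩, ?_, ?_, Subtype.ext (by decide +kernel)⟩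
  · have : Fact (Nat.Prime 7) := ⟨by norm_num⟩
    exact orderOf_eq_prime (p := 7) (Subtype.ext (by decide +kernel))
      (fun h => absurd (congrArg Subtype.val h) (by decide +kernel))
  · exact orderOf_eq_prime (p := 3) (Subtype.ext (by decide +kernel))
      (fun h => absurd (congrArg Subtype.val h) (by decide +kernel))

theorem no_alt {G : Type*} [Group G] [Finite G] (F : Fct G) {k : ℕ} (hk : 10 ≤ k)
    (f : alternatingGroup (Fin k) →* G) (hf : Function.Injective f) : False := by
  obtain ⟨i, hi⟩ := exists_alt_hom hk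
  obtain ⟨x, y, hx, hy, hxy⟩ := alt_ten
  have hj : Function.Injective (f.comp i) := hf.comp hi
  have h1 := F.seven (f.comp i x) (by rw [orderOf_injective _ hj, hx])
  have h2 : f.comp i y ∈ centralizer ({f.comp i x} : Set G) := by
    rw [mem_centralizer_singleton_iff, ← map_mul, hxy, map_mul]
  have h3 := orderOf_dvd_natCard (⟨f.comp i y, h2⟩ : centralizer ({f.comp i x} : Set G))
  rw [Subgroup.orderOf_mk, orderOf_injective _ hj, hy] at h3
  have h4 := h3.trans h1
  norm_num at h4

/-- no proper simple normal subgroup of `G`, and `G` is not simple -/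
theorem no_simple {G : Type u} [Group G] [Finite G] (tab : OrderTable.{u}) (known : Known.{u}) (F : Fct G)
    (hd : Nat.card G ∣ 898128000) (hlt : Nat.card G < 898128000) (h2 : 2 ^ 7 ∣ Nat.card G)
    (h25 : 25 ∣ Nat.card G) (hj2 : ∀ (S : Type u) [Group S], Real .j2 S → ∀ x : S, orderOf x = 7 →
      Nat.card (centralizer ({x} : Set S)) = 7) (M : Subgroup G) [hM : M.Normal] [hs : IsSimpleGroup M]
    (hna : ¬ ∀ a b : M, a * b = b * a) : False := by
  have hMd := (Subgroup.card_subgroup_dvd_card M).trans hd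
  obtain ⟨g, hg, hr, hc⟩ := exists_name tab known hna hMd
  have hchk : chk5 (Nat.card M) = true := by
    rw [hc]; exact (List.all_eq_true.1 all_chk5) g hg
  have hM25 := not25 F M h25 hd hchk
  have hg' : g ∈ ((cands ll nn).filter fun g => ordN g % 25 == 0) :=
    List.mem_filter.2 ⟨hg, by rw [beq_iff_eq, ← hc]; exact Nat.mod_eq_zero_of_dvd hM25⟩
  rw [list25] at hg'
  have h7 : Fact (Nat.Prime 7) := ⟨by norm_num⟩
  have hsq : ¬ 7 ^ 2 ∣ Nat.card G := fun h => by
    have := h.trans hd
    norm_num at this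
  -- elements of order 7
  have hseven : 7 ∣ Nat.card M → ∃ (x : G) (m : ℕ), orderOf x = 7 ∧ x ∈ M ∧
      7 * m ∣ Nat.card (normalizer ((zpowers x : Subgroup G) : Set G)) ∧ (Nat.card M / 7) % 7 = m % 7 ∧
      Nat.card G * (7 * m) = Nat.card M * Nat.card (normalizer ((zpowers x : Subgroup G) : Set G)) := by
    intro h
    obtain ⟨x, hx⟩ := exists_prime_orderOf_dvd_card' 7 h
    have hx' : orderOf (x : G) = 7 := by rw [Subgroup.orderOf_coe, hx]
    obtain ⟨m, h3, h4, h5⟩ := frattini_card h7.1 hsq M (zpowers (x : G)) (by rw [Nat.card_zpowers, hx'])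
      (by rw [zpowers_le]; exact x.2)
    exact ⟨x, m, hx', x.2, h3, h4, h5⟩
  simp only [List.mem_cons, List.not_mem_nil, or_false] at hg'
  rcases hg' with rfl | rfl | rfl | rfl | rfl
  · obtain ⟨e⟩ : Nonempty (M ≃* ↥(alternatingGroup (Fin 10))) := hr
    exact no_alt F le_rfl (M.subtype.comp e.symm.toMonoidHom) (M.subtype_injective.comp e.symm.injective)
  · obtain ⟨e⟩ : Nonempty (M ≃* ↥(alternatingGroup (Fin 11))) := hr
    exact no_alt F (by norm_num) (M.subtype.comp e.symm.toMonoidHom) (M.subtype_injective.comp e.symm.injective)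
  · have hc' : Nat.card M = 126000 := by rw [hc]; decide +kernel
    obtain ⟨x, m, hx, -, h3, h4, h5⟩ := hseven (by rw [hc']; norm_num)
    rw [hc'] at h5
    have h6 : 2 ^ 7 ∣ 126000 * 42 := by
      have h7 : 2 ^ 7 ∣ 126000 * Nat.card (normalizer ((zpowers x : Subgroup G) : Set G)) := by
        rw [← h5]; exact Dvd.dvd.mul_right h2 _
      exact h7.trans (Nat.mul_dvd_mul_left _ (F.norm x hx))
    norm_num at h6
  · have hc' : Nat.card M = 604800 := by rw [hc]; decide +kernel
    obtain ⟨x, m, hx, hxM, h3, h4, h5⟩ := hseven (by rw [hc']; norm_num)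
    rw [hc'] at h4 h5
    have h6 : 7 * m ∣ 7 * 6 := h3.trans (F.norm x hx)
    have h7' : m ∣ 6 := Nat.dvd_of_mul_dvd_mul_left (by norm_num) h6
    have h8 : m = 6 := by
      have h9 : m ≤ 6 := Nat.le_of_dvd (by norm_num) h7'
      norm_num at h4
      omega
    rw [h8] at h3 h5
    have h9 : Nat.card (normalizer ((zpowers x : Subgroup G) : Set G)) = 42 :=
      Nat.dvd_antisymm (F.norm x hx) h3
    have h10 : Nat.card G = 604800 := by rw [h9] at h5; omega
    have h11 : M = ⊤ := Subgroup.eq_top_of_card_eq M (by rw [hc', h10])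
    have h12 := F.ext x hx h9
    have h13 := hj2 M hr ⟨x, hxM⟩ (by rw [Subgroup.orderOf_mk, hx])
    have h14 : (centralizer ({x} : Set G)) ≤ (centralizer ({(⟨x, hxM⟩ : M)} : Set M)).map M.subtype := by
      intro z hz
      have hzM : z ∈ M := by rw [h11]; trivial
      refine ⟨⟨z, hzM⟩, ?_, rfl⟩
      exact mem_centralizer_singleton_iff.2 (Subtype.ext (mem_centralizer_singleton_iff.1 hz))
    have h15 := Subgroup.card_le_of_le h14
    rw [Subgroup.card_map_of_injective M.subtype_injective, h13, h12] at h15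
    omega
  · have hc' : Nat.card M = 898128000 := by rw [hc]; decide +kernel
    have h3 := Nat.le_of_dvd Nat.card_pos (Subgroup.card_subgroup_dvd_card M)
    omega

/-- **the main lemma** -/
theorem main {G : Type u} [Group G] [Finite G] (tab : OrderTable.{u}) (known : Known.{u}) (F : Fct G)
    (hd : Nat.card G ∣ 898128000) (hlt : Nat.card G < 898128000) (h2 : 2 ^ 7 ∣ Nat.card G)
    (h25 : 25 ∣ Nat.card G) (hj2 : ∀ (S : Type u) [Group S], Real .j2 S → ∀ x : S, orderOf x = 7 →
      Nat.card (centralizer ({x} : Set S)) = 7) : False := by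
  have hnt : Nontrivial G := by
    rw [← Finite.one_lt_card_iff_nontrivial]
    exact lt_of_lt_of_le (by norm_num) (Nat.le_of_dvd Nat.card_pos h2)
  obtain ⟨M, hM, hne, hmin⟩ := Cfsg.Agent.Lib.SubnormalJoin.exists_minimal_normal G
  obtain ⟨K, m, hK, hsim, hm, ⟨e⟩⟩ := Cfsg.Agent.Lib.MinNormal.exists_mulEquiv_pi M hne hmin
  have hKd := (Subgroup.card_subgroup_dvd_card K).trans hd
  by_cases hna : ∀ a b : K, a * b = b * a
  · -- abelian
    have hp : (Nat.card K).Prime := by
      let _ : CommGroup K := { (inferInstance : Group K) with mul_comm := hna }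
      exact IsSimpleGroup.prime_card
    refine no_elab F hd h2 h25 M hM hne hp fun f hf hf1 => ?_
    have hfp : Fact (Nat.card K).Prime := ⟨hp⟩
    refine orderOf_eq_prime ?_ hf1
    have h1 : (⟨f, hf⟩ : M) ^ Nat.card K = 1 := by
      apply e.injective
      rw [map_pow, map_one]
      funext i
      rw [Pi.pow_apply, Pi.one_apply]
      exact pow_card_eq_one'
    exact congrArg Subtype.val h1
  · obtain ⟨g, hg, hr, hc⟩ := exists_name tab known hna hKd
    have h4 := (List.all_eq_true.1 all_four) g hg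
    rw [Bool.and_eq_true, Bool.or_eq_true, Bool.or_eq_true, beq_iff_eq, beq_iff_eq, beq_iff_eq, beq_iff_eq, ← hc] at h4
    obtain ⟨h4, h5⟩ := h4
    by_cases hm2 : 2 ≤ m
    · obtain ⟨p, hp, hpp, hpd⟩ : ∃ p : ℕ, p.Prime ∧ (p = 5 ∨ p = 7 ∨ p = 11) ∧ p ∣ Nat.card K := by
        rcases h5 with (h5 | h5) | h5
        · exact ⟨5, by norm_num, by norm_num, Nat.dvd_of_mod_eq_zero h5⟩
        · exact ⟨7, by norm_num, by norm_num, Nat.dvd_of_mod_eq_zero h5⟩
        · exact ⟨11, by norm_num, by norm_num, Nat.dvd_of_mod_eq_zero h5⟩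
      have hfp : Fact p.Prime := ⟨hp⟩
      obtain ⟨x, hx⟩ := exists_prime_orderOf_dvd_card' p hpd
      obtain ⟨f, -, hf, hcard⟩ := card_dvd_cent hm2 M e x hx
      exact F.four p hpp f hf ((Nat.dvd_of_mod_eq_zero h4).trans hcard)
    · have hm1 : m = 1 := by omega
      subst hm1
      have e' : M ≃* K := e.trans (MulEquiv.funUnique (Fin 1) K)
      have hntK : Nontrivial K := inferInstance
      have hntM : Nontrivial M := e'.toEquiv.nontrivial
      have hsM : IsSimpleGroup M := IsSimpleGroup.isSimpleGroup_of_surjective e'.symm.toMonoidHom e'.symm.surjective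
      refine no_simple tab known F hd hlt h2 h25 hj2 M fun h => hna fun a b => ?_
      have h6 := h (e'.symm a) (e'.symm b)
      rw [← map_mul, ← map_mul] at h6
      exact e'.symm.injective h6

end Cfsg.Agent.H217.Odm.McLAbs
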