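import Cfsg.Agent.H217.Odm.Eng2
import Cfsg.Agent.Lib.SubnormalJoin
import Cfsg.Agent.Lib.MinNormal

/-!
# Minimal normal subgroups of a subgroup of odd index (TEAM ODDM, S4785, helper217)

Tools for groups whose order is divisible by the square of the relevant prime (used for `McL`).
-/

set_option autoImplicit false
set_option linter.unusedSectionVars false
open Cfsg

namespace Cfsg.Agent.H217.Odm.Min

open Subgroup Cfsg.Agent.H453.OddM Cfsg.Agent.OrdDiv Cfsg.Agent.H257.El
open Cfsg.Agent.H361.SelfCent (card_modEq_of_perm)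

universe u

/-- all the orbits have length divisible by `d` -/
theorem dvd_of_stab {A X : Type*} [Group A] [MulAction A X] [Finite A] [Finite X] {d : ℕ}
    (h : ∀ x : X, d ∣ (MulAction.stabilizer A x).index) : d ∣ Nat.card X := by
  classical
  have := Fintype.ofFinite (Quotient (MulAction.orbitRel A X))
  rw [Nat.card_congr (MulAction.selfEquivSigmaOrbitsQuotientStabilizer A X), Nat.card_sigma]
  exact Finset.dvd_sum fun i _ => h _

variable {G : Type*} [Group G] [Finite G]

/-- conjugation of `A` on `M \ {1}` -/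
theorem card_sub_one (M A : Subgroup G) (hM : ∀ a ∈ A, ∀ f ∈ M, a * f * a⁻¹ ∈ M) {d : ℕ}
    (h : ∀ f ∈ M, f ≠ 1 → d ∣ (centralizer ({f} : Set G)).relIndex A) : ∃ k, Nat.card M = d * k + 1 := by
  classical
  let X := {f : M // ¬ f = 1}
  let act : MulAction A X :=
    { smul := fun a f => ⟨⟨a * f.1 * a⁻¹, hM a a.2 f.1 f.1.2⟩, fun h => f.2 (by
        have h1 : (a : G) * f.1 * a⁻¹ = 1 := congrArg Subtype.val h
        exact Subtype.ext (conj_eq_one_iff.1 h1))⟩
      one_smul := fun f => Subtype.ext (Subtype.ext (by change (1 : G) * f.1 * (1 : G)⁻¹ = f.1; simp))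
      mul_smul := fun a b f => Subtype.ext (Subtype.ext (by
        change ((a * b : A) : G) * f.1 * ((a * b : A) : G)⁻¹ = a * (b * f.1 * (b : G)⁻¹) * (a : G)⁻¹
        rw [Subgroup.coe_mul]; group)) }
  have h1 : d ∣ Nat.card X := by
    refine dvd_of_stab (A := A) fun f => ?_
    have h2 : MulAction.stabilizer A f = (centralizer ({((f.1 : M) : G)} : Set G)).subgroupOf A := by
      ext a
      rw [MulAction.mem_stabilizer_iff, mem_subgroupOf, mem_centralizer_singleton_iff]
      constructor
      · intro h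
        have h3 : (a : G) * f.1 * (a : G)⁻¹ = f.1 := congrArg (fun z : X => ((z.1 : M) : G)) h
        calc (a : G) * (f.1 : G) = ((a : G) * f.1 * (a : G)⁻¹) * a := by group
          _ = f.1 * a := by rw [h3]
      · intro h
        refine Subtype.ext (Subtype.ext ?_)
        change (a : G) * f.1 * (a : G)⁻¹ = f.1
        rw [h]; group
    rw [h2]
    exact h f.1 f.1.2 fun h3 => f.2 (Subtype.ext h3)
  obtain ⟨k, hk⟩ := h1
  refine ⟨k, ?_⟩
  rw [← hk, Nat.card_congr (Equiv.sumCompl (fun f : M => f = 1)).symm, Nat.card_sum, add_comm]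
  congr 1
  exact Nat.card_unique

/-- `relIndex` and the intersection -/
theorem relIndex_mul (C A : Subgroup G) : C.relIndex A * Nat.card ↥(C ⊓ A) = Nat.card A := by
  have h1 := Subgroup.card_mul_index (C.subgroupOf A)
  have h2 : Nat.card (C.subgroupOf A) = Nat.card ↥(C ⊓ A) := by
    rw [← Subgroup.inf_subgroupOf_right C A]
    exact Nat.card_congr (Subgroup.subgroupOfEquivOfLe inf_le_right).toEquiv
  rw [h2] at h1
  rw [mul_comm]
  exact h1

/-- a `2`-group acts with large orbits -/
theorem two_orbits {a : ℕ} (M S : Subgroup G) (hM : M.Normal) (hS : Nat.card S = 2 ^ (a + 1))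
    (h : ∀ f ∈ M, f ≠ 1 → ¬ 4 ∣ Nat.card (centralizer ({f} : Set G))) : ∃ k, Nat.card M = 2 ^ a * k + 1 := by
  refine card_sub_one M S (fun a _ f hf => hM.conj_mem f hf a) fun f hf hf1 => ?_
  have h1 := relIndex_mul (centralizer ({f} : Set G)) S
  have h2 : Nat.card ↥(centralizer ({f} : Set G) ⊓ S) ∣ 2 ^ (a + 1) := by
    rw [← hS]; exact Subgroup.card_dvd_of_le inf_le_right
  obtain ⟨j, -, hj⟩ := (Nat.dvd_prime_pow Nat.prime_two).1 h2
  have h3 : j < 2 := by
    by_contra hlt
    push Not at hlt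
    apply h f hf hf1
    have h4 : (2 : ℕ) ^ 2 ∣ Nat.card ↥(centralizer ({f} : Set G) ⊓ S) := by rw [hj]; exact pow_dvd_pow _ hlt
    exact h4.trans (Subgroup.card_dvd_of_le inf_le_left)
  rw [hj, hS] at h1
  have h4 : j = 0 ∨ j = 1 := by omega
  rcases h4 with rfl | rfl
  · rw [pow_zero, mul_one] at h1
    rw [h1, pow_succ]
    exact dvd_mul_right _ _
  · rw [pow_one, pow_succ] at h1
    rw [Nat.mul_right_cancel (by norm_num) h1]

/-- an element of order `r` normalising an `s`-subgroup -/
theorem modEq_cent {r s a : ℕ} (hr : r.Prime) (hs : s.Prime) {y : G} (hy : orderOf y = r) {P : Subgroup G}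
    (hP : Nat.card P = s ^ a) (hyP : y ∈ normalizer (P : Set G)) :
    ∃ c : ℕ, s ^ c ∣ Nat.card (centralizer ({y} : Set G)) ∧ s ^ a ≡ s ^ c [MOD r] := by
  have hr' : Fact r.Prime := ⟨hr⟩
  have hs' : Fact s.Prime := ⟨hs⟩
  have hconj : ∀ w : G, w ∈ P ↔ y * w * y⁻¹ ∈ P := mem_normalizer_iff.1 hyP
  let f : Equiv.Perm P :=
    { toFun := fun w => ⟨y * w * y⁻¹, (hconj w).1 w.2⟩
      invFun := fun w => ⟨y⁻¹ * w * y, (hconj _).2 (by simp [mul_assoc])⟩
      left_inv := fun w => Subtype.ext (by simp [mul_assoc])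
      right_inv := fun w => Subtype.ext (by simp [mul_assoc]) }
  have hfk : ∀ k : ℕ, ∀ w : P, (((f ^ k) w : P) : G) = y ^ k * w * (y ^ k)⁻¹ := by
    intro k
    induction k with
    | zero => intro w; simp
    | succ k ih =>
      intro w
      rw [pow_succ', Equiv.Perm.mul_apply]
      show y * ((f ^ k) w : P) * y⁻¹ = _
      rw [ih, pow_succ']
      group
  have hf : f ^ r = 1 := by
    ext w
    rw [hfk, ← hy, pow_orderOf_eq_one]
    simp
  have h6 := card_modEq_of_perm hr f hf
  let C : Subgroup P := (centralizer ({y} : Set G)).subgroupOf P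
  have hmem : ∀ w : P, f w = w ↔ w ∈ C := by
    intro w
    change f w = w ↔ w ∈ (centralizer ({y} : Set G)).subgroupOf P
    rw [mem_subgroupOf, mem_centralizer_singleton_iff]
    constructor
    · intro h
      have h9 : y * (w : G) * y⁻¹ = w := congrArg Subtype.val h
      calc (w : G) * y = (y * (w : G) * y⁻¹) * y := by rw [h9]
        _ = y * w := by group
    · intro h
      apply Subtype.ext
      change y * (w : G) * y⁻¹ = w
      rw [← h]; group
  have h7 : Nat.card {a : P // f a = a} = Nat.card C := Nat.card_congr (Equiv.subtypeEquivRight hmem)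
  obtain ⟨c, hc⟩ : ∃ c, Nat.card C = s ^ c := by
    have h8 : IsPGroup s P := IsPGroup.of_card hP
    exact IsPGroup.iff_card.1 (h8.to_subgroup C)
  refine ⟨c, ?_, ?_⟩
  · rw [← hc]
    have h8 : C.map P.subtype ≤ centralizer ({y} : Set G) := by
      rintro _ ⟨w, hw, rfl⟩
      exact hw
    rw [← Subgroup.card_map_of_injective (K := C) P.subtype_injective]
    exact Subgroup.card_dvd_of_le h8
  · rw [h7, hc, hP] at h6
    exact h6

/-- a subgroup of order `25` acts freely on a normal elementary abelian `p`-subgroup -/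
theorem free25 {p : ℕ} (hp : p.Prime) (hp5 : ¬ 5 ∣ p - 1) (hpne : p ≠ 5) (M : Subgroup G) (hM : M.Normal)
    (hexp : ∀ f ∈ M, f ≠ 1 → orderOf f = p)
    (h5 : ∀ g : G, orderOf g = 5 → ¬ p ^ 2 ∣ Nat.card (centralizer ({g} : Set G)))
    (hpp : ∀ f : G, orderOf f = p → ¬ 25 ∣ Nat.card (centralizer ({f} : Set G))) (A : Subgroup G)
    (hA : Nat.card A = 25) : ∃ k, Nat.card M = 25 * k + 1 := by
  have hf5 : Fact (Nat.Prime 5) := ⟨by norm_num⟩
  have hfp : Fact p.Prime := ⟨hp⟩
  have hcomm : ∀ a ∈ A, ∀ b ∈ A, a * b = b * a := by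
    have h1 := IsPGroup.isMulCommutative_of_card_eq_prime_sq (p := 5) (G := A) (by rw [hA]; norm_num)
    intro a ha b hb
    exact congrArg Subtype.val (mul_comm' (⟨a, ha⟩ : A) ⟨b, hb⟩)
  refine card_sub_one M A (fun a _ f hf => hM.conj_mem f hf a) fun f hf hf1 => ?_
  have h1 := relIndex_mul (centralizer ({f} : Set G)) A
  have h2 : Nat.card ↥(centralizer ({f} : Set G) ⊓ A) = 1 := by
    by_contra hne
    -- an element of order 5
    have h3 : Nat.card ↥(centralizer ({f} : Set G) ⊓ A) ∣ 5 ^ 2 := by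
      have : (5 : ℕ) ^ 2 = Nat.card A := by rw [hA]; norm_num
      rw [this]; exact Subgroup.card_dvd_of_le inf_le_right
    have h4 : 5 ∣ Nat.card ↥(centralizer ({f} : Set G) ⊓ A) := by
      obtain ⟨j, -, hj⟩ := (Nat.dvd_prime_pow hf5.1).1 h3
      rw [hj]
      refine dvd_pow_self _ ?_
      rintro rfl
      exact hne (by rw [hj, pow_zero])
    obtain ⟨⟨g, hgm⟩, hg⟩ := exists_prime_orderOf_dvd_card' 5 h4
    rw [Subgroup.orderOf_mk] at hg
    have hgC : g ∈ centralizer ({f} : Set G) := hgm.1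
    have hgA : g ∈ A := hgm.2
    -- the fixed points of `g`
    let D : Subgroup G := M ⊓ centralizer ({g} : Set G)
    have hfD : f ∈ D := ⟨hf, mem_centralizer_singleton_iff.2 (mem_centralizer_singleton_iff.1 hgC).symm⟩
    have hDn : ∀ a ∈ A, ∀ d ∈ D, a * d * a⁻¹ ∈ D := by
      rintro a ha d ⟨hd1, hd2⟩
      refine ⟨hM.conj_mem d hd1 a, ?_⟩
      have hd2' := mem_centralizer_singleton_iff.1 hd2
      change a * d * a⁻¹ ∈ centralizer ({g} : Set G)
      rw [mem_centralizer_singleton_iff]
      have h5 := hcomm a ha g hgA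
      have h6 : a⁻¹ * g = g * a⁻¹ := by rw [inv_mul_eq_iff_eq_mul, ← mul_assoc, h5, mul_inv_cancel_right]
      calc a * d * a⁻¹ * g = a * d * (a⁻¹ * g) := by group
        _ = a * (d * g) * a⁻¹ := by rw [h6]; group
        _ = a * (g * d) * a⁻¹ := by rw [hd2']
        _ = (a * g) * d * a⁻¹ := by group
        _ = (g * a) * d * a⁻¹ := by rw [h5]
        _ = _ := by group
    have hDp : Nat.card D ∣ p := by
      have hIs : IsPGroup p D := by
        rw [IsPGroup.iff_orderOf]
        rintro ⟨d, hd⟩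
        rw [Subgroup.orderOf_mk]
        by_cases hd1 : d = 1
        · exact ⟨0, by rw [hd1, orderOf_one, pow_zero]⟩
        · exact ⟨1, by rw [hexp d hd.1 hd1, pow_one]⟩
      obtain ⟨c, hc⟩ := IsPGroup.iff_card.1 hIs
      have h5' : Nat.card D ∣ Nat.card (centralizer ({g} : Set G)) := Subgroup.card_dvd_of_le inf_le_right
      have h6 : c < 2 := by
        by_contra hlt
        push Not at hlt
        exact h5 g hg ((pow_dvd_pow p hlt).trans (hc ▸ h5'))
      rw [hc]
      calc p ^ c ∣ p ^ 1 := pow_dvd_pow p (by omega)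
        _ = p := pow_one p
    have hcard : Nat.card D = p := by
      rcases (Nat.dvd_prime hp).1 hDp with h6 | h6
      · exfalso
        rw [Subgroup.card_eq_one] at h6
        rw [h6] at hfD
        exact hf1 (Subgroup.mem_bot.1 hfD)
      · exact h6
    -- some element of `D` is centralised by `A`
    obtain ⟨d, hd, hd1, hdd⟩ : ∃ d ∈ D, d ≠ 1 ∧ ¬ 5 ∣ (centralizer ({d} : Set G)).relIndex A := by
      by_contra hno
      push Not at hno
      obtain ⟨k, hk⟩ := card_sub_one D A hDn (d := 5) hno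
      rw [hcard] at hk
      exact hp5 ⟨k, by omega⟩
    have h6 := relIndex_mul (centralizer ({d} : Set G)) A
    have h7 : (centralizer ({d} : Set G)).relIndex A ∣ 5 ^ 2 := by
      refine Dvd.intro (Nat.card ↥(centralizer ({d} : Set G) ⊓ A)) ?_
      rw [h6, hA]; norm_num
    obtain ⟨j, -, hj⟩ := (Nat.dvd_prime_pow hf5.1).1 h7
    have hj0 : j = 0 := by
      by_contra hj0
      exact hdd (hj ▸ dvd_pow_self _ hj0)
    rw [hj, hj0, pow_zero, one_mul, hA] at h6
    apply hpp d (hexp d hd.1 hd1)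
    rw [← h6]
    exact Subgroup.card_dvd_of_le inf_le_left
  rw [h2, mul_one, hA] at h1
  rw [h1]

/-- commuting copies of a group -/
theorem card_dvd_cent {K : Type*} [Group K] {m : ℕ} (hm : 2 ≤ m) (M : Subgroup G) (e : M ≃* (Fin m → K))
    {p : ℕ} (x : K) (hx : orderOf x = p) :
    ∃ f ∈ M, orderOf f = p ∧ Nat.card K ∣ Nat.card (centralizer ({f} : Set G)) := by
  classical
  let i : Fin m := ⟨0, by omega⟩
  let j : Fin m := ⟨1, by omega⟩
  have hij : i ≠ j := by
    intro h
    have := congrArg Fin.val h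
    simp [i, j] at this
  let φ : K →* G := M.subtype.comp (e.symm.toMonoidHom.comp (MonoidHom.mulSingle (fun _ : Fin m => K) i))
  let ψ : K →* G := M.subtype.comp (e.symm.toMonoidHom.comp (MonoidHom.mulSingle (fun _ : Fin m => K) j))
  have hφ : Function.Injective φ := M.subtype_injective.comp (e.symm.injective.comp (Pi.mulSingle_injective (M := fun _ : Fin m => K) i))
  have hψ : Function.Injective ψ := M.subtype_injective.comp (e.symm.injective.comp (Pi.mulSingle_injective (M := fun _ : Fin m => K) j))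
  refine ⟨φ x, (e.symm (Pi.mulSingle i x)).2, by rw [orderOf_injective φ hφ, hx], ?_⟩
  have h1 : ψ.range ≤ centralizer ({φ x} : Set G) := by
    rintro _ ⟨k, rfl⟩
    rw [mem_centralizer_singleton_iff]
    have h2 : Commute (Pi.mulSingle i x : Fin m → K) (Pi.mulSingle j k) :=
      Pi.mulSingle_commute (f := fun _ : Fin m => K) hij x k
    have h3 : e.symm (Pi.mulSingle j k) * e.symm (Pi.mulSingle i x) =
        e.symm (Pi.mulSingle i x) * e.symm (Pi.mulSingle j k) := by
      rw [← map_mul, ← map_mul, h2.eq]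
    exact congrArg Subtype.val h3
  have h2 : Nat.card K = Nat.card ψ.range := Nat.card_congr (MonoidHom.ofInjective hψ).toEquiv
  rw [h2]
  exact Subgroup.card_dvd_of_le h1

/-- centralizers in a subgroup -/
theorem card_cent_sub {T : Type*} [Group T] (R : Subgroup T) (x : R) :
    Nat.card (centralizer ({x} : Set R)) ∣ Nat.card (centralizer ({(x : T)} : Set T)) := by
  rw [← Subgroup.card_map_of_injective (K := centralizer ({x} : Set R)) R.subtype_injective]
  refine Subgroup.card_dvd_of_le ?_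
  rintro _ ⟨y, hy, rfl⟩
  rw [mem_centralizer_singleton_iff]
  exact congrArg Subtype.val (mem_centralizer_singleton_iff.1 hy)

end Cfsg.Agent.H217.Odm.Min
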