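import Cfsg.Agent.H217.Odm.Eng
import Cfsg.Agent.H180.ElTits
import Cfsg.Agent.H800.Sp.TitsFive

/-!
# TEAM ODDM (S4785): the Tits group (helper897)

`r = 13` (self-centralizing, `|N| = 13 * 6`), `s = 5` (one class of elements of order `5`).
-/

set_option autoImplicit false

namespace Cfsg.Agent.H217.OdmRowTits

open Cfsg Subgroup Cfsg.Agent.OrdDiv Cfsg.Agent.H453.OddM Cfsg.Agent.H217.Odm

universe u

/-- the normalizers of the subgroups of order `13`, and reality -/
theorem thirteen {T : Type u} [Group T] [Finite T] (h : Lie.IsoTits T) {x : T} (hx : orderOf x = 13) :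
    Nat.card (normalizer ((zpowers x : Subgroup T) : Set T)) = 13 * 6 ∧ IsReal x := by
  have hs := H180.ElS.simple_tits h
  have h1 := norm_of_cent (G := T) (r := 13) (n := 1382400) (c := 1) (e := 6) (by norm_num)
    (by rw [NotCT.Orders.tits h]) (by norm_num) hx
    (by rw [H547.SelfCent.tits h hs (H393.Iso.na_tits h) hx]) (by norm_num) (by norm_num)
  exact ⟨h1.1, h1.2 (by decide)⟩

/-- **the row of the Tits group** -/
theorem row (tab : OrderTable.{u}) (known : Cfsg.Agent.H257.El.Known.{u}) {T : Type u} [Group T]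
    (h : Lie.IsoTits T) : Row T := by
  have hc := NotCT.Orders.tits h
  have : Finite T := Nat.finite_of_card_ne_zero (by rw [hc]; norm_num)
  have hs := H180.ElS.simple_tits h
  have f13 : Fact (Nat.Prime 13) := ⟨by norm_num⟩
  have f5 : Fact (Nat.Prime 5) := ⟨by norm_num⟩
  obtain ⟨x, hx⟩ := exists_prime_orderOf_dvd_card' (G := T) 13 (by rw [hc]; norm_num)
  obtain ⟨y, hy⟩ := exists_prime_orderOf_dvd_card' (G := T) 5 (by rw [hc]; norm_num)
  refine row_of_two (n := 17971200) (l := [(2, 11), (3, 3), (5, 2), (13, 1)]) (r := 13) (nu := 6) (ss := [5])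
    tab known hc f13.out ⟨x, hx, (thirteen h hx).2⟩ (fun x hx => (thirteen h hx).1) ?_ (by decide +kernel)
  intro s hs'
  rw [List.mem_singleton] at hs'
  rw [hs']
  refine ⟨f5.out, ⟨y, hy, H800.Sp.TitsFive.oneClass h y y⁻¹ hy (by rw [orderOf_inv, hy])⟩, ?_⟩
  exact H180.ElS.noOrd_tits h hs f5.out (by norm_num)

end Cfsg.Agent.H217.OdmRowTits

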